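import Cfsg.Agent.Lib.Helper43.BinQuad

set_option autoImplicit false

namespace Cfsg.Agent.Lib.Helper43

open Module

section BinQuad2
variable {V : Type*} [AddCommGroup V] [Module (ZMod 2) V]

theorem sum_sgn_dual_eq_zero [Fintype V] (φ : Dual (ZMod 2) V) (h : ∃ u, φ u ≠ 0) :
    ∑ u, sgn (φ u) = 0 := by
  obtain ⟨u0, hu0⟩ := h
  have h1 : φ u0 = 1 := zmod2_eq_one_of_ne_zero hu0
  have h2 : ∑ u, sgn (φ u) = - ∑ u, sgn (φ u) := by
    conv_lhs => rw [← Equiv.sum_comp (Equiv.addRight u0)]
    rw [← Finset.sum_neg_distrib]
    apply Finset.sum_congr rfl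
    intro u _
    simp only [Equiv.coe_addRight, map_add, sgn_add, h1, sgn_one]
    ring
  omega

variable (B : LinearMap.BilinForm (ZMod 2) V) (q : V → ZMod 2)

theorem polar_eq_zero_of_singular (hq : ∀ u v, q (u + v) = q u + q v + B u v)
    (U : Submodule (ZMod 2) V) (hU : ∀ u ∈ U, q u = 0) (u v : V) (hu : u ∈ U) (hv : v ∈ U) :
    B u v = 0 := by
  have := hq u v
  rw [hU u hu, hU v hv, hU _ (U.add_mem hu hv)] at this
  simpa using this.symm

theorem expSum_eq_card_of_lagrangian [Fintype V] (hq : ∀ u v, q (u + v) = q u + q v + B u v)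
    (U : Submodule (ZMod 2) V) (hU : ∀ u ∈ U, q u = 0)
    (hmax : ∀ v, (∀ u ∈ U, B v u = 0) → v ∈ U) : expSum q = Nat.card U := by
  classical
  have hcardpos : (0 : ℤ) < Nat.card U := by exact_mod_cast Nat.card_pos
  have key : (Nat.card U : ℤ) * expSum q = Nat.card U * Nat.card U := by
    have h1 : (Nat.card U : ℤ) * expSum q = ∑ u : U, ∑ v, sgn (q (v + u)) := by
      have : ∀ u : U, ∑ v, sgn (q (v + u)) = expSum q :=
        fun u => Equiv.sum_comp (Equiv.addRight (u : V)) (fun v => sgn (q v))
      simp_rw [this]
      simp [Nat.card_eq_fintype_card]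
    rw [h1, Finset.sum_comm]
    have h2 : ∀ v, ∑ u : U, sgn (q (v + u)) = if v ∈ U then (Nat.card U : ℤ) else 0 := by
      intro v
      have h3 : ∀ u : U, sgn (q (v + u)) = sgn (q v) * sgn (B v u) := by
        intro u
        rw [hq, hU u u.2, add_zero, sgn_add]
      simp_rw [h3, ← Finset.mul_sum]
      split_ifs with hv
      · have h4 : ∀ u : U, B v u = 0 := fun u => polar_eq_zero_of_singular B q hq U hU v u hv u.2
        simp [h4, hU v hv, Nat.card_eq_fintype_card]
      · have h4 : ∃ u : U, ((B v) ∘ₗ U.subtype) u ≠ 0 := by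
          by_contra h
          push Not at h
          exact hv (hmax v (fun u hu => h ⟨u, hu⟩))
        have h5 := sum_sgn_dual_eq_zero ((B v) ∘ₗ U.subtype) h4
        simp only [LinearMap.comp_apply, Submodule.subtype_apply] at h5
        rw [h5, mul_zero]
    simp_rw [h2]
    rw [← Finset.sum_filter, Finset.sum_const, Nat.card_eq_fintype_card, Fintype.card_subtype]
    simp
  exact mul_left_cancel₀ hcardpos.ne' key

theorem two_mul_card_zeros [Fintype V] :
    2 * (Nat.card {v // q v = 0} : ℤ) = Fintype.card V + expSum q := by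
  classical
  unfold expSum sgn
  rw [Finset.sum_ite, Nat.card_eq_fintype_card, Fintype.card_subtype]
  have h := Finset.card_filter_add_card_filter_not (s := (Finset.univ : Finset V)) (fun v => q v = 0)
  simp only [Finset.sum_const, nsmul_eq_mul, mul_one, mul_neg]
  rw [← Finset.card_univ, ← h]
  push_cast
  ring

theorem two_mul_card_ones [Fintype V] :
    2 * (Nat.card {v // q v = 1} : ℤ) = Fintype.card V - expSum q := by
  classical
  unfold expSum sgn
  rw [Finset.sum_ite, Nat.card_eq_fintype_card, Fintype.card_subtype]
  have h := Finset.card_filter_add_card_filter_not (s := (Finset.univ : Finset V)) (fun v => q v = 0)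
  have h' : (Finset.univ.filter (fun v => q v = 1)) = (Finset.univ.filter (fun v => ¬ q v = 0)) := by
    ext v
    simp only [Finset.mem_filter, Finset.mem_univ, true_and]
    rcases zmod2_cases (q v) with h | h <;> simp [h]
  simp only [Finset.sum_const, nsmul_eq_mul, mul_one, mul_neg]
  rw [← Finset.card_univ, ← h, h']
  push_cast
  ring

/-- The forms polarizing to `B` are the translates `q + B(·,w)` of any one of them. -/
noncomputable def translateEquiv [FiniteDimensional (ZMod 2) V] (hq : ∀ u v, q (u + v) = q u + q v + B u v)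
    (hsymm : ∀ u v, B u v = B v u) (hnd : B.Nondegenerate) :
    V ≃ {q' : V → ZMod 2 // ∀ u v, q' (u + v) = q' u + q' v + B u v} :=
  Equiv.ofBijective (fun w => ⟨fun v => q v + B v w, fun u v => by
      beta_reduce
      rw [hq, map_add, LinearMap.add_apply]; ring⟩) (by
    constructor
    · intro w w' h
      have h1 : ∀ v, B v w = B v w' := by
        intro v
        have := congrFun (congrArg Subtype.val h) v
        simpa using this
      have h2 : w - w' = 0 := hnd.2 _ (fun v => by rw [map_sub, h1, sub_self])
      exact sub_eq_zero.1 h2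
    · rintro ⟨q', hq'⟩
      let d : V →+ ZMod 2 :=
        { toFun := fun v => q' v + q v
          map_zero' := by rw [binquad_zero B q hq, binquad_zero B q' hq', add_zero]
          map_add' := fun u v => by
            rw [hq, hq']
            have := zmod2_add_self (B u v)
            linear_combination this }
      let dl : Dual (ZMod 2) V := AddMonoidHom.toZModLinearMap 2 d
      refine ⟨(B.toDual hnd).symm dl, ?_⟩
      apply Subtype.ext
      funext v
      have h1 : B ((B.toDual hnd).symm dl) v = dl v := by
        rw [← LinearMap.BilinForm.toDual_def hnd, LinearEquiv.apply_symm_apply]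
      show q v + B v ((B.toDual hnd).symm dl) = q' v
      rw [hsymm, h1]
      show q v + (q' v + q v) = q' v
      have := zmod2_add_self (q v)
      linear_combination this)

theorem translateEquiv_apply [FiniteDimensional (ZMod 2) V] (hq : ∀ u v, q (u + v) = q u + q v + B u v)
    (hsymm : ∀ u v, B u v = B v u) (hnd : B.Nondegenerate) (w v : V) :
    (translateEquiv B q hq hsymm hnd w).1 v = q v + B v w := rfl

end BinQuad2

end Cfsg.Agent.Lib.Helper43
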