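import Mathlib

set_option autoImplicit false

namespace Cfsg.Agent.Lib.Helper43

open Module

/-- the sign character of `ZMod 2`. -/
def sgn (a : ZMod 2) : ℤ := if a = 0 then 1 else -1

theorem sgn_add (a b : ZMod 2) : sgn (a + b) = sgn a * sgn b := by
  revert a b; decide

@[simp] theorem sgn_zero : sgn 0 = 1 := rfl
@[simp] theorem sgn_one : sgn 1 = -1 := rfl

theorem sgn_mul_self (a : ZMod 2) : sgn a * sgn a = 1 := by
  revert a; decide

theorem zmod2_add_self (a : ZMod 2) : a + a = 0 := by
  revert a; decide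

theorem zmod2_eq_one_of_ne_zero {a : ZMod 2} (h : a ≠ 0) : a = 1 := by
  revert a; decide

theorem zmod2_cases (a : ZMod 2) : a = 0 ∨ a = 1 := by
  revert a; decide

section BinQuad
variable {V : Type*} [AddCommGroup V] [Module (ZMod 2) V]

/-- the exponential sum of a `ZMod 2`-valued function. -/
def expSum [Fintype V] (q : V → ZMod 2) : ℤ := ∑ v, sgn (q v)

variable (B : LinearMap.BilinForm (ZMod 2) V) (q : V → ZMod 2)

theorem binquad_zero (hq : ∀ u v, q (u + v) = q u + q v + B u v) : q 0 = 0 := by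
  have := hq 0 0
  simp only [add_zero, map_zero] at this
  have h2 := zmod2_add_self (q 0)
  rw [h2] at this; exact this

/-- If `q w = 0`, the transvection `v ↦ v + B(v,w) w` carries `q` to `q + B(·,w)`. -/
theorem exists_equiv_translate (hq : ∀ u v, q (u + v) = q u + q v + B u v) (halt : ∀ v, B v v = 0)
    (w : V) (hw : q w = 0) : ∃ g : V ≃ₗ[ZMod 2] V, ∀ v, q v + B v w = q (g v) := by
  have hf : (B.flip w) w = 0 := by simpa using halt w
  refine ⟨LinearEquiv.transvection hf, fun v => ?_⟩
  rw [LinearEquiv.transvection.apply]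
  have e : (B.flip w) v = B v w := rfl
  rw [e]
  rcases zmod2_cases (B v w) with h | h
  · rw [h]; simp
  · rw [h, one_smul, hq, hw, h]; simp

theorem sum_sgn_eq_zero [Fintype V] (t : V) (ht : ∃ u, B u t ≠ 0) : ∑ u, sgn (B u t) = 0 := by
  obtain ⟨u0, hu0⟩ := ht
  have h1 : B u0 t = 1 := zmod2_eq_one_of_ne_zero hu0
  have h2 : ∑ u, sgn (B u t) = - ∑ u, sgn (B u t) := by
    conv_lhs => rw [← Equiv.sum_comp (Equiv.addRight u0)]
    rw [← Finset.sum_neg_distrib]
    apply Finset.sum_congr rfl
    intro u _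
    simp only [Equiv.coe_addRight, map_add, LinearMap.add_apply, sgn_add, h1, sgn_one]
    ring
  omega

theorem expSum_mul_self [Fintype V] (hq : ∀ u v, q (u + v) = q u + q v + B u v)
    (hnd : ∀ t, t ≠ 0 → ∃ u, B u t ≠ 0) : expSum q * expSum q = Fintype.card V := by
  classical
  unfold expSum
  rw [Finset.sum_mul_sum]
  have h1 : ∀ u, ∑ v, sgn (q u) * sgn (q v) = ∑ t, sgn (q t) * sgn (B u t) := by
    intro u
    rw [← Equiv.sum_comp (Equiv.addLeft u)]
    apply Finset.sum_congr rfl
    intro t _
    simp only [Equiv.coe_addLeft]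
    rw [hq u t, sgn_add, sgn_add]
    have := sgn_mul_self (q u)
    linear_combination (sgn (q t) * sgn (B u t)) * this
  simp_rw [h1]
  rw [Finset.sum_comm]
  simp_rw [← Finset.mul_sum]
  rw [Finset.sum_eq_single 0]
  · simp [binquad_zero B q hq]
  · intro t _ ht
    rw [sum_sgn_eq_zero B t (hnd t ht), mul_zero]
  · simp

theorem expSum_ne_zero [Fintype V] (hq : ∀ u v, q (u + v) = q u + q v + B u v)
    (hnd : ∀ t, t ≠ 0 → ∃ u, B u t ≠ 0) : expSum q ≠ 0 := by
  intro h
  have := expSum_mul_self B q hq hnd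
  rw [h] at this
  have h2 : Fintype.card V ≠ 0 := Fintype.card_ne_zero
  simp only [mul_zero] at this
  exact h2 (by exact_mod_cast this.symm)

theorem expSum_translate [Fintype V] (hq : ∀ u v, q (u + v) = q u + q v + B u v) (halt : ∀ v, B v v = 0)
    (w : V) : expSum (fun v => q v + B v w) = sgn (q w) * expSum q := by
  unfold expSum
  rw [← Equiv.sum_comp (Equiv.addRight w), Finset.mul_sum]
  apply Finset.sum_congr rfl
  intro v _
  simp only [Equiv.coe_addRight, map_add, LinearMap.add_apply, halt, add_zero]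
  rw [hq]
  have : q v + q w + B v w + B v w = q w + q v := by
    rw [add_assoc, zmod2_add_self, add_zero, add_comm]
  rw [this, sgn_add]

theorem expSum_comp_equiv [Fintype V] {V' : Type*} [Fintype V'] (g : V' ≃ V) :
    expSum (fun v => q (g v)) = expSum q := by
  unfold expSum
  exact Equiv.sum_comp g (fun v => sgn (q v))

end BinQuad

end Cfsg.Agent.Lib.Helper43
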