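import Mathlib

set_option autoImplicit false

namespace Cfsg.Agent.Lib.Helper43

open Module

section general
variable {K V : Type*} [Field K] [AddCommGroup V] [Module K V] [FiniteDimensional K V]

theorem finrank_ker_comp_le (f g : V →ₗ[K] V) :
    finrank K (LinearMap.ker (f ∘ₗ g)) ≤ finrank K (LinearMap.ker g) + finrank K (LinearMap.ker f) := by
  let h : LinearMap.ker (f ∘ₗ g) →ₗ[K] LinearMap.ker f :=
    (g.domRestrict _).codRestrict _ (fun x => by
      have := x.2
      rw [LinearMap.mem_ker, LinearMap.comp_apply] at this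
      rw [LinearMap.mem_ker]
      exact this)
  have h1 := h.finrank_range_add_finrank_ker
  have h2 : finrank K (LinearMap.range h) ≤ finrank K (LinearMap.ker f) := Submodule.finrank_le _
  have h3 : finrank K (LinearMap.ker h) ≤ finrank K (LinearMap.ker g) := by
    let j : LinearMap.ker h →ₗ[K] LinearMap.ker g :=
      (((LinearMap.ker (f ∘ₗ g)).subtype).domRestrict _).codRestrict _ (fun x => by
        have := x.2
        rw [LinearMap.mem_ker] at this
        have h4 := congrArg Subtype.val this
        rw [LinearMap.mem_ker]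
        exact h4)
    apply LinearMap.finrank_le_finrank_of_injective (f := j)
    intro x y hxy
    have := congrArg Subtype.val hxy
    simp [j] at this
    exact this
  omega

theorem finrank_ker_pow_le (f : V →ₗ[K] V) (k : ℕ) :
    finrank K (LinearMap.ker (f ^ k)) ≤ k * finrank K (LinearMap.ker f) := by
  induction k with
  | zero => simp [Module.End.one_eq_id]
  | succ k ih =>
    have := finrank_ker_comp_le f (f ^ k)
    rw [pow_succ', Module.End.mul_eq_comp]
    nlinarith

/-- An invariant subspace of a nilpotent endomorphism is killed by the power given by its dimension. -/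
theorem le_ker_pow_finrank_of_invariant (f : V →ₗ[K] V) (hf : IsNilpotent f) (W : Submodule K V)
    (hW : ∀ v ∈ W, f v ∈ W) : W ≤ LinearMap.ker (f ^ finrank K W) := by
  obtain ⟨n, hn⟩ := hf
  let g : W →ₗ[K] W := f.restrict hW
  have hg : ∀ k : ℕ, ∀ w : W, ((g ^ k) w : V) = (f ^ k) w := by
    intro k
    induction k with
    | zero => intro w; simp
    | succ k ih =>
      intro w
      rw [pow_succ', pow_succ', Module.End.mul_apply, Module.End.mul_apply, ← ih]
      rfl
  have hgn : g ^ n = 0 := by
    ext w
    rw [hg, hn]; simp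
  have hgd : g ^ finrank K W = 0 := by
    by_cases hle : finrank K W ≤ n
    · have := Module.End.ker_pow_eq_ker_pow_finrank_of_le (f := g) hle
      rw [hgn] at this
      rw [← LinearMap.ker_eq_top, ← this]; simp
    · push Not at hle
      exact pow_eq_zero_of_le hle.le hgn
  intro w hw
  rw [LinearMap.mem_ker]
  have := hg (finrank K W) ⟨w, hw⟩
  rw [hgd] at this
  simpa using this.symm

/-- Invariant subspaces of a nilpotent endomorphism with one-dimensional kernel. -/
theorem eq_ker_pow_finrank_of_invariant (f : V →ₗ[K] V) (hf : IsNilpotent f)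
    (hker : finrank K (LinearMap.ker f) ≤ 1) (W : Submodule K V)
    (hW : ∀ v ∈ W, f v ∈ W) : W = LinearMap.ker (f ^ finrank K W) := by
  apply Submodule.eq_of_le_of_finrank_le (le_ker_pow_finrank_of_invariant f hf W hW)
  have := finrank_ker_pow_le f (finrank K W)
  nlinarith

end general

section matrix
variable {F : Type*} [Field F] {ι : Type*} [Fintype ι] [DecidableEq ι]

theorem mulVecLin_pow' (A : Matrix ι ι F) (k : ℕ) :
    Matrix.mulVecLin (A ^ k) = (Matrix.mulVecLin A) ^ k := by
  induction k with
  | zero => simp [Module.End.one_eq_id]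
  | succ k ih => rw [pow_succ, pow_succ, Matrix.mulVecLin_mul, ih, Module.End.mul_eq_comp]

theorem finrank_ker_mulVecLin (A : Matrix ι ι F) :
    A.rank + finrank F (LinearMap.ker (Matrix.mulVecLin A)) = Fintype.card ι := by
  have := (Matrix.mulVecLin A).finrank_range_add_finrank_ker
  simpa [Matrix.rank] using this

/-- Invariant subspaces of a regular unipotent matrix. -/
theorem regular_unipotent_invariant (u : Matrix ι ι F) (k : ℕ) (hnil : (u - 1) ^ k = 0)
    (hreg : (u - 1).rank = Fintype.card ι - 1) (W : Submodule F (ι → F))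
    (hW : ∀ v ∈ W, u.mulVec v ∈ W) :
    W = LinearMap.ker (Matrix.mulVecLin ((u - 1) ^ finrank F W)) := by
  have hnilN : IsNilpotent (Matrix.mulVecLin (u - 1)) := ⟨k, by rw [← mulVecLin_pow', hnil]; simp⟩
  have hker : finrank F (LinearMap.ker (Matrix.mulVecLin (u - 1))) ≤ 1 := by
    have := finrank_ker_mulVecLin (u - 1)
    omega
  have hWN : ∀ v ∈ W, Matrix.mulVecLin (u - 1) v ∈ W := by
    intro v hv
    simp only [Matrix.mulVecLin_apply, Matrix.sub_mulVec, Matrix.one_mulVec]
    exact W.sub_mem (hW v hv) hv
  rw [mulVecLin_pow']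
  exact eq_ker_pow_finrank_of_invariant _ hnilN hker W hWN

end matrix

end Cfsg.Agent.Lib.Helper43
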