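import Cfsg.Prelude.Def_JordanBlocks
import Cfsg.Agent.Lib.Helper43.RegNilp

set_option autoImplicit false

namespace Cfsg.Agent.Lib.Helper43

open Module Matrix Polynomial

section
variable (n : ℕ) (F : Type*) [Field F]

theorem jordanBlock_sub_one_apply (i j : Fin n) :
    (Cfsg.jordanBlock n F - 1) i j = if (i : ℕ) = (j : ℕ) + 1 then 1 else 0 := by
  simp only [Cfsg.jordanBlock, Matrix.sub_apply, Matrix.of_apply, Matrix.one_apply]
  by_cases h : i = j
  · subst h; simp
  · have h' : (i : ℕ) ≠ j := fun e => h (Fin.ext e)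
    simp [h, h']

theorem det_jordanBlock : (Cfsg.jordanBlock n F).det = 1 := by
  rw [Matrix.det_of_lowerTriangular]
  · simp [Cfsg.jordanBlock]
  · intro i j hij
    have hij' : (i : ℕ) < j := hij
    simp only [Cfsg.jordanBlock, Matrix.of_apply]
    rw [if_neg (by omega), if_neg (by omega)]

theorem jordanBlock_sub_one_pow : (Cfsg.jordanBlock n F - 1) ^ n = 0 := by
  set N := Cfsg.jordanBlock n F - 1 with hN
  have h1 : Nᵀ.charpoly = X ^ n := by
    rw [Matrix.charpoly_of_upperTriangular]
    · have : ∀ i : Fin n, N i i = 0 := by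
        intro i
        rw [hN, jordanBlock_sub_one_apply, if_neg (by omega)]
      simp [this]
    · intro i j hij
      have hij' : (j : ℕ) < i := hij
      rw [Matrix.transpose_apply, hN, jordanBlock_sub_one_apply, if_neg (by omega)]
  rw [Matrix.charpoly_transpose] at h1
  have h2 := Matrix.aeval_self_charpoly N
  rw [h1] at h2
  simpa using h2

theorem jordanBlock_sub_one_mulVec_succ (v : Fin n → F) (j : Fin n) (hj : (j : ℕ) + 1 < n) :
    ((Cfsg.jordanBlock n F - 1) *ᵥ v) ⟨j + 1, hj⟩ = v j := by
  simp only [Matrix.mulVec, dotProduct, jordanBlock_sub_one_apply]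
  rw [Finset.sum_eq_single j]
  · simp
  · intro l _ hl
    have : (j : ℕ) ≠ l := fun e => hl (Fin.ext e.symm)
    rw [if_neg (by omega), zero_mul]
  · simp

theorem rank_jordanBlock_sub_one : (Cfsg.jordanBlock n F - 1).rank = n - 1 := by
  rcases Nat.eq_zero_or_pos n with h0 | hpos
  · subst h0
    have := Matrix.rank_le_card_width (Cfsg.jordanBlock 0 F - 1)
    simpa using this
  set N := Cfsg.jordanBlock n F - 1 with hN
  have h1 := finrank_ker_mulVecLin N
  rw [Fintype.card_fin] at h1
  let l : Fin n := ⟨n - 1, by omega⟩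
  have hle : LinearMap.ker (Matrix.mulVecLin N) ≤ (F ∙ (Pi.single l (1 : F) : Fin n → F)) := by
    intro v hv
    rw [LinearMap.mem_ker, Matrix.mulVecLin_apply] at hv
    rw [Submodule.mem_span_singleton]
    refine ⟨v l, ?_⟩
    ext j
    by_cases hj : j = l
    · subst hj; simp
    · have hj' : (j : ℕ) + 1 < n := by
        have h2 : (j : ℕ) ≠ n - 1 := fun e => hj (Fin.ext e)
        have := j.2
        omega
      have h3 := jordanBlock_sub_one_mulVec_succ n F v j hj'
      rw [← hN, hv] at h3
      simp [hj, ← h3]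
  have h2 : finrank F (LinearMap.ker (Matrix.mulVecLin N)) ≤ 1 := by
    refine (Submodule.finrank_mono hle).trans ?_
    have hne : (Pi.single l (1 : F) : Fin n → F) ≠ 0 := by
      intro h7
      have h8 := congrFun h7 l
      simp at h8
    rw [finrank_span_singleton hne]
  have h3 : 1 ≤ finrank F (LinearMap.ker (Matrix.mulVecLin N)) := by
    by_contra hcon
    have h4 : finrank F (LinearMap.ker (Matrix.mulVecLin N)) = 0 := by omega
    have h5 : LinearMap.ker (Matrix.mulVecLin N) = ⊥ := Submodule.finrank_eq_zero.1 h4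
    have hinj : Function.Injective (Matrix.mulVecLin N) := LinearMap.ker_eq_bot.1 h5
    have hpow : ∀ k : ℕ, Function.Injective ((Matrix.mulVecLin N) ^ k) := by
      intro k
      induction k with
      | zero => exact fun x y h => h
      | succ k ih =>
        rw [pow_succ]
        exact ih.comp hinj
    have h6 := hpow n
    rw [← mulVecLin_pow', hN, jordanBlock_sub_one_pow] at h6
    have h7 : (Pi.single l (1 : F) : Fin n → F) = 0 := h6 (by simp)
    have h8 := congrFun h7 l
    simp at h8
  omega

end

end Cfsg.Agent.Lib.Helper43
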