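import Cfsg.Agent.Lib.Helper43.Dilation

set_option autoImplicit false

namespace Cfsg.Agent.Lib.Helper43

open Module LinearMap

variable {K V : Type*} [Field K] [AddCommGroup V] [Module K V]

/-- Standard form of an endomorphism of square zero: `V = C ⊕ N C ⊕ D` with `D ≤ ker N`. -/
theorem exists_std_of_sq_zero [FiniteDimensional K V] (N : V →ₗ[K] V) (hN : ∀ x, N (N x) = 0) :
    ∃ (C D : Submodule K V) (Ψ : (C × C × D) ≃ₗ[K] V),
      (∀ p : C × C × D, Ψ p = (p.1 : V) + N p.2.1 + p.2.2) ∧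
      finrank K C = finrank K (range N) ∧ (∀ z ∈ D, N z = 0) := by
  obtain ⟨C, hC⟩ := Submodule.exists_isCompl (ker N)
  obtain ⟨E, hE⟩ := Submodule.exists_isCompl (range N)
  let D : Submodule K V := E ⊓ ker N
  let Ψ₀ : (C × C × D) →ₗ[K] V :=
    C.subtype ∘ₗ LinearMap.fst K C (C × D) + N ∘ₗ C.subtype ∘ₗ LinearMap.fst K C D ∘ₗ LinearMap.snd K C (C × D)
      + D.subtype ∘ₗ LinearMap.snd K C D ∘ₗ LinearMap.snd K C (C × D)
  have hΨ₀ : ∀ p : C × C × D, Ψ₀ p = (p.1 : V) + N p.2.1 + p.2.2 := fun p => rfl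
  have hCk : ∀ x : V, x ∈ C → N x = 0 → x = 0 := by
    intro x hx hx0
    have : x ∈ ker N ⊓ C := ⟨hx0, hx⟩
    rw [hC.inf_eq_bot] at this
    exact this
  have hinj : Function.Injective Ψ₀ := by
    rw [← LinearMap.ker_eq_bot, LinearMap.ker_eq_bot']
    rintro ⟨x, y, z⟩ h
    rw [hΨ₀] at h
    simp only at h
    have hz : N (z : V) = 0 := z.2.2
    have h1 : N (x : V) = 0 := by
      have := congrArg N h
      rw [map_add, map_add, hN, hz, map_zero, add_zero, add_zero] at this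
      exact this
    have hx : (x : V) = 0 := hCk _ x.2 h1
    rw [hx, zero_add] at h
    have h2 : N (y : V) ∈ range N ⊓ E := by
      refine ⟨⟨_, rfl⟩, ?_⟩
      have : N (y : V) = -(z : V) := eq_neg_of_add_eq_zero_left h
      rw [this]
      exact E.neg_mem z.2.1
    rw [hE.inf_eq_bot] at h2
    have h3 : N (y : V) = 0 := h2
    have hy : (y : V) = 0 := hCk _ y.2 h3
    rw [h3, zero_add] at h
    ext
    · exact hx
    · exact hy
    · exact h
  have hdec : ∀ v : V, ∃ k ∈ ker N, ∃ x ∈ C, k + x = v := by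
    intro v
    have : v ∈ ker N ⊔ C := by rw [hC.sup_eq_top]; trivial
    exact Submodule.mem_sup.mp this
  have hsurj : Function.Surjective Ψ₀ := by
    intro v
    obtain ⟨k, hk, x, hx, rfl⟩ := hdec v
    have hk' : k ∈ range N ⊔ E := by rw [hE.sup_eq_top]; trivial
    obtain ⟨_, ⟨y0, rfl⟩, e, he, rfl⟩ := Submodule.mem_sup.mp hk'
    obtain ⟨k', hk2, y, hy, rfl⟩ := hdec y0
    have heK : e ∈ ker N := by
      rw [mem_ker] at hk ⊢
      rw [map_add, hN, zero_add] at hk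
      exact hk
    refine ⟨(⟨x, hx⟩, ⟨y, hy⟩, ⟨e, he, heK⟩), ?_⟩
    rw [hΨ₀]
    simp only
    rw [map_add, mem_ker.mp hk2, zero_add]
    abel
  refine ⟨C, D, LinearEquiv.ofBijective Ψ₀ ⟨hinj, hsurj⟩, hΨ₀, ?_, fun z hz => hz.2⟩
  have h1 := Submodule.finrank_add_eq_of_isCompl hC
  have h2 := LinearMap.finrank_range_add_finrank_ker N
  omega

/-- Two endomorphisms of square zero and of the same rank are conjugate. -/
theorem exists_equiv_of_sq_zero [FiniteDimensional K V] (N N' : V →ₗ[K] V) (hN : ∀ x, N (N x) = 0)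
    (hN' : ∀ x, N' (N' x) = 0) (hr : finrank K (range N) = finrank K (range N')) :
    ∃ g : V ≃ₗ[K] V, ∀ x, g (N x) = N' (g x) := by
  obtain ⟨C, D, Ψ, hΨ, hC, hD⟩ := exists_std_of_sq_zero N hN
  obtain ⟨C', D', Ψ', hΨ', hC', hD'⟩ := exists_std_of_sq_zero N' hN'
  have hCC : finrank K C = finrank K C' := by omega
  have hDD : finrank K D = finrank K D' := by
    have h1 := Ψ.finrank_eq
    have h2 := Ψ'.finrank_eq
    rw [Module.finrank_prod, Module.finrank_prod] at h1 h2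
    omega
  let φ : C ≃ₗ[K] C' := LinearEquiv.ofFinrankEq _ _ hCC
  let ψ : D ≃ₗ[K] D' := LinearEquiv.ofFinrankEq _ _ hDD
  let g : V ≃ₗ[K] V := Ψ.symm.trans ((φ.prodCongr (φ.prodCongr ψ)).trans Ψ')
  have hNΨ : ∀ p : C × C × D, N (Ψ p) = Ψ (0, p.1, 0) := by
    intro p
    rw [hΨ, hΨ, map_add, map_add, hN, hD _ p.2.2.2]
    simp
  have hNΨ' : ∀ p : C' × C' × D', N' (Ψ' p) = Ψ' (0, p.1, 0) := by
    intro p
    rw [hΨ', hΨ', map_add, map_add, hN', hD' _ p.2.2.2]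
    simp
  have hg : ∀ p : C × C × D, g (Ψ p) = Ψ' (φ p.1, φ p.2.1, ψ p.2.2) := by
    intro p
    simp [g]
  refine ⟨g, fun x => ?_⟩
  obtain ⟨p, rfl⟩ := Ψ.surjective x
  rw [hNΨ, hg, hg, hNΨ']
  simp

/-- A nonzero endomorphism of square zero commutes with automorphisms of every square determinant. -/
theorem exists_commuting_det_sq [FiniteDimensional K V] (N : V →ₗ[K] V) (hN : ∀ x, N (N x) = 0)
    (hN0 : N ≠ 0) (l : K) (hl : l ≠ 0) :
    ∃ h : V ≃ₗ[K] V, (∀ x, h (N x) = N (h x)) ∧ LinearMap.det (h : V →ₗ[K] V) = l * l := by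
  obtain ⟨c, hc⟩ : ∃ c, N c ≠ 0 := by
    by_contra h; push Not at h; exact hN0 (LinearMap.ext h)
  have hnot : N c ∉ Submodule.span K {c} := by
    intro h
    obtain ⟨μ, hμ⟩ := Submodule.mem_span_singleton.mp h
    have h1 : μ • N c = 0 := by
      rw [← map_smul, hμ, hN]
    have hμ0 : μ = 0 := (smul_eq_zero.mp h1).resolve_right hc
    exact hc (by rw [← hμ, hμ0, zero_smul])
  obtain ⟨β₀, hβ₀, hβc⟩ := Submodule.exists_le_ker_of_notMem hnot
  let β : Dual K V := (β₀ (N c))⁻¹ • β₀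
  have hβe : β (N c) = 1 := by simp [β, hβ₀]
  have hβc' : β c = 0 := by
    have : β₀ c = 0 := hβc (Submodule.mem_span_singleton_self c)
    simp [β, this]
  let α : Dual K V := β ∘ₗ N
  have hαc : α c = 1 := hβe
  obtain ⟨h1, h1x, h1d⟩ := exists_dilation_of_dual c α hαc l hl
  obtain ⟨h2, h2x, h2d⟩ := exists_dilation_of_dual (N c) β hβe l hl
  refine ⟨h2.trans h1, fun x => ?_, ?_⟩
  · show h1 (h2 (N x)) = N (h1 (h2 x))
    rw [h2x, h2x, h1x, h1x]
    simp only [α, LinearMap.comp_apply, map_add, map_smul, hN, smul_zero, add_zero, smul_eq_mul,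
      mul_zero, zero_smul, map_zero]
  · have : ((h2.trans h1 : V ≃ₗ[K] V) : V →ₗ[K] V) = (h1 : V →ₗ[K] V) ∘ₗ (h2 : V →ₗ[K] V) := rfl
    rw [this, LinearMap.det_comp, h1d, h2d]

end Cfsg.Agent.Lib.Helper43
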